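import Cfsg.Agent.AltLinear.Two
import Cfsg.Agent.AltLinear.OddMain
import Cfsg.Agent.AltLinear.Spin
import Cfsg.Agent.AltCover.Main

/-!
Reduction of alternating sections of finite linear groups to faithful modules of alternating groups
and of their double covers.
-/

set_option autoImplicit false
set_option linter.unusedSectionVars false

namespace CfsgLib.AltLinear

open Module Equiv
open scoped commutatorElement

/-- An algebraic closure of the prime field. -/
abbrev Kp (p : ℕ) [Fact p.Prime] : Type := AlgebraicClosure (ZMod p)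

/-- The bound. -/
def altBound (r p : ℕ) : ℕ := r - 1 - (if p ∣ r then 1 else 0)

theorem le_altBound {r p : ℕ} : r - 2 ≤ altBound r p ∧ altBound r p ≤ r - 1 := by
  unfold altBound; split <;> omega

theorem alt_isSimpleGroup {r : ℕ} (hr : 5 ≤ r) : IsSimpleGroup (Alt r) :=
  alternatingGroup.isSimpleGroup (by simpa using hr)

theorem exists_noncomm {r : ℕ} (hr : 5 ≤ r) : ∃ a b : Alt r, a * b ≠ b * a := by
  refine ⟨em (Fin.castLEEmb hr) t012, em (Fin.castLEEmb hr) t034, fun h => ?_⟩
  rw [← map_mul, ← map_mul] at h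
  exact absurd (em_injective _ h) (by decide)

theorem commutator_alt {r : ℕ} (hr : 5 ≤ r) : commutator (Alt r) = ⊤ := by
  haveI := alt_isSimpleGroup hr
  rcases (inferInstance : (commutator (Alt r)).Normal).eq_bot_or_eq_top with h | h
  · obtain ⟨a, b, hab⟩ := exists_noncomm hr
    exfalso
    apply hab
    rw [← commutatorElement_eq_one_iff_mul_comm]
    exact (Subgroup.eq_bot_iff_forall _).1 h _ (Subgroup.commutator_mem_commutator (Subgroup.mem_top a) (Subgroup.mem_top b))
  · exact h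

theorem two_factorial_lt {n r : ℕ} (hn : n + 2 ≤ r) (hr : 3 ≤ r) : 2 * n.factorial < r.factorial := by
  obtain ⟨k, rfl⟩ : ∃ k, r = k + 2 := ⟨r - 2, by omega⟩
  have h1 : n.factorial ≤ k.factorial := Nat.factorial_le (by omega)
  have h3 : 0 < k.factorial := Nat.factorial_pos k
  rw [Nat.factorial_succ, Nat.factorial_succ]
  have h6 : 6 * k.factorial ≤ (k + 1 + 1) * (k + 1) * k.factorial :=
    Nat.mul_le_mul_right _ (Nat.mul_le_mul (show 3 ≤ k + 1 + 1 by omega) (show 2 ≤ k + 1 by omega))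
  rw [← mul_assoc]
  omega

theorem card_alt {r : ℕ} (hr : 2 ≤ r) : 2 * Nat.card (Alt r) = r.factorial := by
  haveI : Nontrivial (Fin r) := Fin.nontrivial_iff_two_le.2 hr
  rw [two_mul_nat_card_alternatingGroup, Nat.card_perm, Nat.card_eq_fintype_card, Fintype.card_fin]

theorem sq_lt_two_pow : ∀ x : ℕ, 5 ≤ x → x ^ 2 < 2 ^ x := by
  intro x hx
  induction x, hx using Nat.le_induction with
  | base => norm_num
  | succ x hx ih => rw [pow_succ 2 x]; nlinarith

theorem normal_closure_of_invariant {G : Type*} [Group G] (S : Set G) (hS : ∀ g : G, ∀ x ∈ S, g * x * g⁻¹ ∈ S) :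
    (Subgroup.closure S).Normal := ⟨fun x hx g => by
  induction hx using Subgroup.closure_induction with
  | mem x hx => exact Subgroup.subset_closure (hS g x hx)
  | one => simp
  | mul a b _ _ ha hb =>
    rw [show g * (a * b) * g⁻¹ = (g * a * g⁻¹) * (g * b * g⁻¹) by group]
    exact Subgroup.mul_mem _ ha hb
  | inv a _ ha =>
    rw [show g * a⁻¹ * g⁻¹ = (g * a * g⁻¹)⁻¹ by group]
    exact Subgroup.inv_mem _ ha⟩

section Perfect

variable {r : ℕ} {H : Type*} [Group H] [Finite H] {φ : H →* Alt r}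

theorem map_ne_top_of_min (hφ : Function.Surjective φ)
    (hmin : ∀ M : Subgroup H, M ≠ ⊤ → M.map φ ≠ ⊤) :
    φ.ker ≤ frattini H := by
  refine le_iInf₂ fun M hM => ?_
  by_contra hle
  have h1 : M ⊔ φ.ker = ⊤ := hM.2 _ (lt_of_le_of_ne le_sup_left fun h => hle (h ▸ le_sup_right))
  apply hmin M hM.1
  have := congrArg (Subgroup.map φ) h1
  rwa [Subgroup.map_sup, (Subgroup.map_eq_bot_iff φ.ker).2 le_rfl, sup_bot_eq,
    Subgroup.map_top_of_surjective φ hφ] at this

theorem perfect_of_min (hr : 5 ≤ r) (hφ : Function.Surjective φ)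
    (hmin : ∀ M : Subgroup H, M ≠ ⊤ → M.map φ ≠ ⊤) : commutator H = ⊤ := by
  by_contra h
  apply hmin _ h
  rw [commutator_def, Subgroup.map_commutator, Subgroup.map_top_of_surjective φ hφ, ← commutator_def,
    commutator_alt hr]

theorem normal_eq_top_or_le (hr : 5 ≤ r) (hφ : Function.Surjective φ)
    (hmin : ∀ M : Subgroup H, M ≠ ⊤ → M.map φ ≠ ⊤) (N : Subgroup H) [hN : N.Normal] : N = ⊤ ∨ N ≤ φ.ker := by
  haveI := alt_isSimpleGroup hr
  rcases (hN.map φ hφ).eq_bot_or_eq_top with h | h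
  · exact Or.inr ((Subgroup.map_eq_bot_iff N).1 h)
  · left
    by_contra hne
    exact hmin N hne h

theorem hom_comm_eq_one (hperf : commutator H = ⊤) {C : Type*} [Group C] (hC : ∀ a b : C, a * b = b * a)
    (f : H →* C) (g : H) : f g = 1 := by
  have : commutator H ≤ f.ker := by
    rw [commutator_def, Subgroup.commutator_le]
    intro a _ b _
    rw [MonoidHom.mem_ker, map_commutatorElement, commutatorElement_eq_one_iff_mul_comm, hC]
  rw [hperf] at this
  exact this (Subgroup.mem_top g)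

end Perfect

section Module

variable {r : ℕ} {H : Type} [Group H] [Finite H] {k : Type} [Field k] {V : Type} [AddCommGroup V] [Module k V]
  (ρ : Representation k H V)

/-- The action on a quotient module. -/
def quotRep (U : Submodule k V) (hU : ∀ g, ∀ x ∈ U, ρ g x ∈ U) : Representation k H (V ⧸ U) where
  toFun g := U.mapQ U (ρ g) (fun x hx => hU g x hx)
  map_one' := Submodule.linearMap_qext _ (LinearMap.ext fun x => by simp)
  map_mul' g h := Submodule.linearMap_qext _ (LinearMap.ext fun x => by simp)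

theorem quotRep_mk (U : Submodule k V) (hU : ∀ g, ∀ x ∈ U, ρ g x ∈ U) (g : H) (x : V) :
    quotRep ρ U hU g (Submodule.Quotient.mk x) = Submodule.Quotient.mk (ρ g x) := rfl

/-- A common eigenvector of commuting elements. -/
theorem exists_common_eigen [IsAlgClosed k] [FiniteDimensional k V] [Nontrivial V] (A : Subgroup H)
    (hA : ∀ a ∈ A, ∀ b ∈ A, a * b = b * a) :
    ∃ (χ : ↥A → k) (v : V), v ≠ 0 ∧ ∀ a : ↥A, ρ a.1 v = χ a • v := by
  classical
  haveI : Fintype ↥A := Fintype.ofFinite _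
  suffices ∀ S : Finset ↥A, ∃ U : Submodule k V, U ≠ ⊥ ∧ (∀ a : ↥A, ∀ x ∈ U, ρ a.1 x ∈ U) ∧
      ∀ a ∈ S, ∃ c : k, ∀ x ∈ U, ρ a.1 x = c • x by
    obtain ⟨U, hU, -, hs⟩ := this Finset.univ
    obtain ⟨v, hv, hv0⟩ := Submodule.exists_mem_ne_zero_of_ne_bot hU
    choose c hc using fun a => hs a (Finset.mem_univ a)
    exact ⟨c, v, hv0, fun a => hc a v hv⟩
  intro S
  induction S using Finset.induction_on with
  | empty => exact ⟨⊤, top_ne_bot, fun a x _ => Submodule.mem_top, fun a ha => absurd ha (Finset.notMem_empty a)⟩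
  | insert b S _ ih =>
    obtain ⟨U, hU, hinv, hs⟩ := ih
    obtain ⟨μ, v, hvU, hv, hve⟩ := exists_eigen_mem (ρ b.1) U (hinv b) hU
    refine ⟨U ⊓ Module.End.eigenspace (ρ b.1) μ, fun hb => hv ((Submodule.eq_bot_iff _).1 hb v
      (Submodule.mem_inf.2 ⟨hvU, Module.End.mem_eigenspace_iff.2 hve⟩)), fun a x hx => ?_, fun a ha => ?_⟩
    · rw [Submodule.mem_inf] at hx ⊢
      exact ⟨hinv a x hx.1, eigen_invariant ρ (hA a.1 a.2 b.1 b.2) μ x hx.2⟩
    · rcases Finset.mem_insert.1 ha with rfl | ha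
      · exact ⟨μ, fun x hx => Module.End.mem_eigenspace_iff.1 (Submodule.mem_inf.1 hx).2⟩
      · obtain ⟨c, hc⟩ := hs a ha
        exact ⟨c, fun x hx => hc x (Submodule.mem_inf.1 hx).1⟩

theorem scalar_of_abelian_normal [IsAlgClosed k] [FiniteDimensional k V] [Nontrivial V] (hr : 9 ≤ r) {φ : H →* Alt r}
    (hφ : Function.Surjective φ) (hmin : ∀ M : Subgroup H, M ≠ ⊤ → M.map φ ≠ ⊤)
    (hirr : ∀ U : Submodule k V, (∀ g, ∀ x ∈ U, ρ g x ∈ U) → U = ⊥ ∨ U = ⊤)
    (hsmall : finrank k V + 2 ≤ r) (A : Subgroup H) [hAn : A.Normal] (hA : ∀ a ∈ A, ∀ b ∈ A, a * b = b * a) :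
    ∀ a ∈ A, ∃ c : k, ρ a = c • 1 := by
  classical
  obtain ⟨χ₀, v₀, hv₀, hχ₀⟩ := exists_common_eigen ρ A hA
  let S : Set (↥A → k) := {χ | ∃ v : V, v ≠ 0 ∧ ∀ a : ↥A, ρ a.1 v = χ a • v}
  have hcard : ∀ T : Finset (↥A → k), ↑T ⊆ S → T.card ≤ finrank k V := fun T hT =>
    card_weights_le (fun a : ↥A => ρ a.1)
      (fun a b => by rw [Commute, SemiconjBy, ← map_mul, ← map_mul, hA a.1 a.2 b.1 b.2]) T hT
  have hfin : S.Finite := by
    by_contra hinf
    obtain ⟨T, hT, hT'⟩ := (Set.not_finite.1 hinf : S.Infinite).exists_subset_card_eq (finrank k V + 1)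
    have := hcard T hT
    omega
  haveI : Finite ↥S := hfin.to_subtype
  let cj : H → ↥A → ↥A := fun g a => ⟨g⁻¹ * a.1 * g, by
    have := hAn.conj_mem a.1 a.2 g⁻¹
    rwa [inv_inv] at this⟩
  have hmem : ∀ g (χ : ↥S), (fun a => χ.1 (cj g a)) ∈ S := by
    intro g χ
    obtain ⟨v, hv, hve⟩ := χ.2
    refine ⟨ρ g v, fun h0 => hv (rep_injective ρ g (by simpa using h0)), fun a => ?_⟩
    have := congrArg (ρ g) (hve (cj g a))
    rw [map_smul, ← rep_mul_apply] at this
    rw [← this, ← rep_mul_apply]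
    congr 1
    simp [cj, mul_assoc]
  let act : H →* Perm ↥S :=
    { toFun := fun g =>
        { toFun := fun χ => ⟨_, hmem g χ⟩
          invFun := fun χ => ⟨_, hmem g⁻¹ χ⟩
          left_inv := fun χ => Subtype.ext (funext fun a => congrArg χ.1 (Subtype.ext (by simp [cj, mul_assoc])))
          right_inv := fun χ => Subtype.ext (funext fun a => congrArg χ.1 (Subtype.ext (by simp [cj, mul_assoc]))) }
      map_one' := Equiv.ext fun χ => Subtype.ext (funext fun a => congrArg χ.1 (Subtype.ext (by simp [cj])))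
      map_mul' := fun g g' => Equiv.ext fun χ => Subtype.ext (funext fun a =>
        congrArg χ.1 (Subtype.ext (by simp [cj, mul_assoc]))) }
  rcases normal_eq_top_or_le (by omega) hφ hmin act.ker with htop | hle
  · intro a ha
    let U : Submodule k V := ⨅ b : ↥A, Module.End.eigenspace (ρ b.1) (χ₀ b)
    have hU : ∀ g, ∀ x ∈ U, ρ g x ∈ U := by
      intro g x hx
      simp only [U, Submodule.mem_iInf, Module.End.mem_eigenspace_iff] at hx ⊢
      intro b
      have hfix : act g ⟨χ₀, v₀, hv₀, hχ₀⟩ = ⟨χ₀, v₀, hv₀, hχ₀⟩ := by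
        rw [show act g = 1 from (htop ▸ Subgroup.mem_top g : g ∈ act.ker)]; rfl
      have hb : χ₀ (cj g b) = χ₀ b := congrFun (congrArg Subtype.val hfix) b
      have := congrArg (ρ g) (hx (cj g b))
      rw [map_smul, hb, ← rep_mul_apply] at this
      rw [← this, ← rep_mul_apply]
      congr 1
      simp [cj, mul_assoc]
    rcases hirr U hU with hb | ht
    · exfalso
      refine hv₀ ((Submodule.eq_bot_iff _).1 hb v₀ ?_)
      simp only [U, Submodule.mem_iInf, Module.End.mem_eigenspace_iff]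
      exact hχ₀
    · refine ⟨χ₀ ⟨a, ha⟩, LinearMap.ext fun x => ?_⟩
      have hx : x ∈ U := ht ▸ Submodule.mem_top
      simp only [U, Submodule.mem_iInf, Module.End.mem_eigenspace_iff] at hx
      exact hx ⟨a, ha⟩
  · exfalso
    let g : H → act.range := fun h => ⟨act h, h, rfl⟩
    have hsurj : Nat.card (Alt r) ≤ Nat.card act.range := by
      choose sec hsec using fun y : act.range => y.2
      refine Nat.card_le_card_of_surjective (fun y => φ (sec y)) fun x => ?_
      obtain ⟨h0, rfl⟩ := hφ x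
      refine ⟨g h0, ?_⟩
      have : sec (g h0) * h0⁻¹ ∈ act.ker := by
        rw [MonoidHom.mem_ker, map_mul, map_inv, hsec]; exact mul_inv_cancel _
      have := hle this
      rwa [MonoidHom.mem_ker, map_mul, map_inv, mul_inv_eq_one] at this
    have h1 : Nat.card act.range ≤ (Nat.card ↥S).factorial :=
      (Subgroup.card_le_card_group _).trans (Nat.card_perm (α := ↥S)).le
    have h2 : Nat.card ↥S ≤ finrank k V := by
      have := hcard hfin.toFinset (by simp)
      rwa [Nat.card_coe_set_eq, Set.ncard_eq_toFinset_card S hfin]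
    have h3 := card_alt (r := r) (by omega)
    have h4 := two_factorial_lt hsmall (by omega)
    have h5 := Nat.factorial_le h2
    omega

end Module

theorem exists_matrix_rep_add {H : Type*} [Group H] (l : ℕ) [Fact l.Prime] {A : Type} [AddCommGroup A] [Finite A]
    (hexp : ∀ z : A, l • z = 0) (ψ : H → A →+ A) (h1 : ∀ z, ψ 1 z = z) (hm : ∀ g g' z, ψ (g * g') z = ψ g (ψ g' z)) :
    ∃ (d : ℕ) (τ : H →* Matrix (Fin d) (Fin d) (ZMod l)), Nat.card A = l ^ d ∧ ∀ g, τ g = 1 → ∀ z, ψ g z = z := by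
  letI : Module (ZMod l) A := AddCommGroup.zmodModule (n := l) hexp
  haveI : Module.Finite (ZMod l) A := Module.Finite.of_finite
  let T : H → (A →ₗ[ZMod l] A) := fun g => (ψ g).toZModLinearMap l
  have happ : ∀ g z, T g z = ψ g z := fun _ _ => rfl
  let B := Module.finBasis (ZMod l) A
  let τ : H →* Matrix (Fin (finrank (ZMod l) A)) (Fin (finrank (ZMod l) A)) (ZMod l) :=
    { toFun := fun g => LinearMap.toMatrixAlgEquiv B (T g)
      map_one' := by
        rw [show T 1 = LinearMap.id from LinearMap.ext fun z => by rw [happ, h1]; rfl,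
          LinearMap.toMatrixAlgEquiv_id]
      map_mul' := fun g g' => by
        rw [show T (g * g') = (T g) ∘ₗ (T g') from LinearMap.ext fun z => by
          rw [happ, hm]; rfl, LinearMap.toMatrixAlgEquiv_comp] }
  refine ⟨finrank (ZMod l) A, τ, ?_, fun g hg z => ?_⟩
  · rw [Module.natCard_eq_pow_finrank (K := ZMod l), Nat.card_zmod]
  · have h2 : T g = LinearMap.id := (LinearMap.toMatrixAlgEquiv B).injective
      (hg.trans (LinearMap.toMatrixAlgEquiv_id B).symm)
    rw [← happ, h2]; rfl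

theorem exists_matrix_rep {H : Type*} [Group H] (l : ℕ) [Fact l.Prime] {Q : Type} [CommGroup Q] [Finite Q]
    (hexp : ∀ z : Q, z ^ l = 1) (ψ : H →* Monoid.End Q) :
    ∃ (d : ℕ) (τ : H →* Matrix (Fin d) (Fin d) (ZMod l)), Nat.card Q = l ^ d ∧ ∀ g, τ g = 1 → ψ g = 1 := by
  obtain ⟨d, τ, hc, hk⟩ := exists_matrix_rep_add (H := H) l (A := Additive Q)
    (fun z => Additive.toMul.injective (by rw [toMul_nsmul, hexp, toMul_zero]))
    (fun g => MonoidHom.toAdditive (ψ g))
    (fun z => by
      show Additive.ofMul (ψ 1 z.toMul) = z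
      rw [map_one]; rfl)
    (fun g g' z => by
      show Additive.ofMul (ψ (g * g') z.toMul) = Additive.ofMul (ψ g (ψ g' z.toMul))
      rw [map_mul]; rfl)
  exact ⟨d, τ, (Nat.card_congr Additive.ofMul).trans hc,
    fun g hg => MonoidHom.ext fun z => Additive.ofMul.injective (hk g hg (Additive.ofMul z))⟩

theorem main_central {r p : ℕ} [Fact p.Prime] (hr : 9 ≤ r) {V : Type} [AddCommGroup V] [Module (Kp p) V]
    [FiniteDimensional (Kp p) V] [Nontrivial V] {H : Type} [Group H] [Finite H] (ρ : Representation (Kp p) H V)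
    (φ : H →* Alt r) (hφ : Function.Surjective φ) (hinj : ∀ h, ρ h = 1 → h = 1) (hperf : commutator H = ⊤)
    (hscal : ∀ z ∈ φ.ker, ∃ c : Kp p, ρ z = c • 1) (hlt : finrank (Kp p) V < altBound r p) : False := by
  haveI : CharP (Kp p) p := charP_of_injective_algebraMap (algebraMap (ZMod p) (Kp p)).injective p
  obtain ⟨m, rfl⟩ : ∃ m, r = m + 2 := ⟨r - 2, by omega⟩
  have hcen : φ.ker ≤ Subgroup.center H := fun z hz => Subgroup.mem_center_iff.2 fun g => by
    obtain ⟨c, hc⟩ := hscal z hz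
    have := hinj (g * z * g⁻¹ * z⁻¹) (by
      have h1 : ρ (g * z * g⁻¹) = c • 1 := by
        rw [map_mul, map_mul, hc, mul_smul_comm, mul_one, smul_mul_assoc, ← map_mul, mul_inv_cancel, map_one]
      rw [map_mul, h1, ← hc, ← map_mul, mul_inv_cancel, map_one])
    rw [mul_inv_eq_one] at this
    exact mul_inv_eq_iff_eq_mul.1 this
  let q : H →* Perm (Fin (m + 2)) := (alternatingGroup (Fin (m + 2))).subtype.comp φ
  have hker : q.ker = φ.ker := Subgroup.ext fun x => by simp [q, MonoidHom.mem_ker]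
  have hext : CfsgLib.AltCover.IsExt q := ⟨by
    refine le_antisymm ?_ fun x hx => ?_
    · rintro _ ⟨y, rfl⟩; exact (φ y).2
    · obtain ⟨y, hy⟩ := hφ ⟨x, hx⟩
      exact ⟨y, congrArg Subtype.val hy⟩, hker ▸ hcen⟩
  obtain ⟨δ, hδ2, ⟨u, v, hu, hv, huv⟩, hle⟩ := CfsgLib.AltCover.ker_le_zpowers_klein (m := m) (by omega)
    (Or.inr (by omega)) hext (by rw [hperf]; exact le_top)
  have hkmem : ∀ z, φ z = 1 → z = 1 ∨ z = δ := fun z hz => by
    have hz' : z ∈ q.ker := by rw [hker]; exact hz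
    obtain ⟨i, hi⟩ := Subgroup.mem_zpowers_iff.1 (hle hz')
    rcases Int.even_or_odd i with ⟨j, hj⟩ | ⟨j, hj⟩
    · left; rw [← hi, hj, ← two_mul, zpow_mul, zpow_two, hδ2, one_zpow]
    · right; rw [← hi, hj, zpow_add, zpow_mul, zpow_two, hδ2, one_zpow, one_mul, zpow_one]
  have hb := le_altBound (r := m + 2) (p := p)
  have hdiv : ((m + 2 : ℕ) : Kp p) = 0 → finrank (Kp p) V + 3 ≤ m + 2 := fun h0 => by
    rw [CharP.cast_eq_zero_iff (Kp p) p] at h0
    unfold altBound at hlt
    rw [if_pos h0] at hlt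
    omega
  by_cases hδ1 : δ = 1
  · -- a module of the alternating group itself
    have hbij : Function.Bijective φ := ⟨(injective_iff_map_eq_one φ).2 fun z hz =>
      (hkmem z hz).elim id (fun h => h.trans hδ1), hφ⟩
    let E := MulEquiv.ofBijective φ hbij
    let σ : Representation (Kp p) (Alt (m + 2)) V := ρ.comp E.symm.toMonoidHom
    have hσ : ∀ g, σ g = 1 → g = 1 := fun g hg => by simpa using hinj _ hg
    by_cases hp : p = 2
    · subst hp
      have h2 : (2 : Kp 2) = 0 := by exact_mod_cast CharP.cast_eq_zero (Kp 2) 2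
      unfold altBound at hlt
      by_cases hev : 2 ∣ m + 2
      · rw [if_pos hev] at hlt
        let d : Fin (m + 1) ↪ Fin (m + 2) := Fin.castLEEmb (by omega)
        exact SmallTwo.false_of_small (σ := σ.comp (em d))
          ⟨h2, by omega, by omega, fun g hg => em_injective d ((hσ _ hg).trans (map_one _).symm), by omega⟩
      · rw [if_neg hev] at hlt
        exact SmallTwo.false_of_small (σ := σ) ⟨h2, hr, by omega, hσ, by omega⟩
    · have h2 : (2 : Kp p) ≠ 0 := fun h2 => hp ((Nat.prime_dvd_prime_iff_eq (Fact.out : p.Prime) Nat.prime_two).1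
        ((CharP.cast_eq_zero_iff (Kp p) p 2).1 (by exact_mod_cast h2)))
      exact SmallOdd.false_of_small (σ := σ) ⟨h2, hr, hσ, by omega, hdiv⟩
  · -- a spin module
    have hδk : δ ∈ φ.ker := by
      rw [MonoidHom.mem_ker, ← huv, map_commutatorElement, commutatorElement_eq_one_iff_mul_comm]
      apply Subtype.ext
      show q u * q v = q v * q u
      rw [hu, hv]
      exact (CfsgLib.AltCover.four_facts (n := m + 2) (by omega)).2.1
    have hδneg : ρ δ = -1 ∧ (2 : Kp p) ≠ 0 := by
      obtain ⟨c, hc⟩ := hscal δ hδk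
      obtain ⟨x, hx⟩ := exists_ne (0 : V)
      have h2 : (c * c - 1) • x = 0 := by
        have := rep_mul_apply ρ δ δ x
        rw [hδ2, map_one, hc] at this
        simp only [Module.End.one_apply, LinearMap.smul_apply, smul_smul] at this
        rw [sub_smul, one_smul, ← this, sub_self]
      have hc1 : c ≠ 1 := fun h1 => hδ1 (hinj δ (by rw [hc, h1, one_smul]))
      have h3 : (c - 1) * (c + 1) = 0 := by linear_combination (smul_eq_zero.1 h2).resolve_right hx
      have hcm : c = -1 := eq_neg_of_add_eq_zero_left ((mul_eq_zero.1 h3).resolve_left (sub_ne_zero.2 hc1))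
      refine ⟨by rw [hc, hcm, neg_one_smul], fun h20 => hc1 ?_⟩
      rw [hcm]; linear_combination -h20
    have hspin : Spin φ ρ := by
      refine ⟨hφ, fun z hz => ?_, fun e a b ha hb' => ?_⟩
      · rcases hkmem z hz with rfl | rfl
        · exact ⟨one_mul 1, Or.inl (map_one ρ), fun g => by rw [mul_one, one_mul]⟩
        · exact ⟨hδ2, Or.inr hδneg.1, Subgroup.mem_center_iff.1 (hcen hδk)⟩
      · let c4 : Fin 4 ↪ Fin (m + 2) := Fin.castLEEmb (by omega)
        obtain ⟨g, hg⟩ := exists_em_conj c4 e (by omega)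
        obtain ⟨G, hG⟩ := hφ g
        have s1 : CfsgLib.AltCover.sgen (m + 2) 1 = (em c4 t4).1 := by
          rw [← CfsgLib.AltCover.incl_sgen (show 4 ≤ m + 2 by omega) (show 1 + 2 < 4 by omega)]
          show Perm.viaEmbeddingHom _ _ = Perm.viaEmbeddingHom _ _
          congr 1
        have s2 : CfsgLib.AltCover.rgen (m + 2) = (em c4 (t4 * u4)).1 := by
          rw [← CfsgLib.AltCover.incl_rgen (show 4 ≤ m + 2 by omega) le_rfl]
          show Perm.viaEmbeddingHom _ _ = Perm.viaEmbeddingHom _ _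
          congr 1; decide
        have e1 : φ (G * u * G⁻¹) = em e t4 := by
          rw [map_mul, map_mul, map_inv, hG, ← hg]
          congr 2
          exact Subtype.ext (hu.trans s1)
        have e2 : φ (G * v * G⁻¹) = φ (a * b) := by
          rw [map_mul, map_mul, map_inv, hG, map_mul, ha, hb', ← map_mul, ← hg]
          congr 2
          exact Subtype.ext (hv.trans s2)
        have hd : δ ∈ Subgroup.center H := hcen hδk
        have hcc : ∀ x y, φ x = φ y → ∃ z ∈ Subgroup.center H, x = z * y := fun x y hxy =>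
          ⟨x * y⁻¹, hcen (by rw [MonoidHom.mem_ker, map_mul, map_inv, hxy, mul_inv_cancel]), by group⟩
        obtain ⟨z1, hz1, f1⟩ := hcc _ _ (e1.trans ha.symm)
        obtain ⟨z2, hz2, f2⟩ := hcc _ _ e2
        have hconj : ⁅G * u * G⁻¹, G * v * G⁻¹⁆ = δ := by
          rw [show ⁅G * u * G⁻¹, G * v * G⁻¹⁆ = G * ⁅u, v⁆ * G⁻¹ by simp only [commutatorElement_def]; group, huv,
            Subgroup.mem_center_iff.1 hd, mul_inv_cancel_right]
        rw [f1, f2, CfsgLib.SchurMult.commutatorElement_mul_central hz1 hz2] at hconj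
        have hab : a * b = δ * (b * a) := by
          calc a * b = a⁻¹ * ⁅a, a * b⁆ * a * (b * a) := by rw [commutatorElement_def]; group
            _ = δ * (b * a) := by
              rw [hconj, Subgroup.mem_center_iff.1 hd a⁻¹, mul_assoc δ, inv_mul_cancel, mul_one]
        rw [hab, map_mul, hδneg.1, neg_one_mul]
    obtain ⟨b1, b2⟩ := Spin.bound (m + 2) hr hspin hδneg.2
    unfold altBound at hlt
    split at hlt
    · omega
    · rename_i hnd
      have := b2 (fun h0 => hnd ((CharP.cast_eq_zero_iff (Kp p) p _).1 h0))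
      omega

theorem alt_section_bound (r : ℕ) (hr : 9 ≤ r) : ∀ (n : ℕ) (p : ℕ) [Fact p.Prime] (V : Type) [AddCommGroup V]
    [Module (Kp p) V] [FiniteDimensional (Kp p) V], finrank (Kp p) V = n →
    ∀ (H : Type) [Group H] [Finite H] (ρ : Representation (Kp p) H V) (φ : H →* Alt r),
      Function.Surjective φ → (∀ h, ρ h = 1 → φ h = 1) → altBound r p ≤ n := by
  intro n
  induction n using Nat.strong_induction_on with
  | _ n ihn =>
  intro p _ V _ _ _ hn
  suffices hc : ∀ c (H : Type) [Group H] [Finite H] (ρ : Representation (Kp p) H V) (φ : H →* Alt r),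
      Nat.card H = c → Function.Surjective φ → (∀ h, ρ h = 1 → φ h = 1) → altBound r p ≤ n from
    fun H _ _ ρ φ hφ hk => hc _ H ρ φ rfl hφ hk
  intro c
  induction c using Nat.strong_induction_on with
  | _ c ihc =>
  intro H _ _ ρ φ hc hφ hk
  by_contra hlt
  have hlt' : finrank (Kp p) V < altBound r p := by omega
  have hb := le_altBound (r := r) (p := p)
  -- faithfulness
  have hinj : ∀ h, ρ h = 1 → h = 1 := by
    by_contra hne
    push Not at hne
    obtain ⟨h0, hh0, hh1⟩ := hne
    let ρu : H →* (Module.End (Kp p) V)ˣ := ρ.toHomUnits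
    have hcard : Nat.card ρu.range < c := by
      rw [← hc, ← Subgroup.card_mul_index ρu.ker, ← Subgroup.index_ker]
      have h1 : 1 < Nat.card ρu.ker := by
        rw [Finite.one_lt_card_iff_nontrivial]
        exact ⟨⟨⟨h0, Units.ext hh0⟩, 1, fun e => hh1 (congrArg Subtype.val e)⟩⟩
      have h2 : 0 < ρu.ker.index := Nat.pos_of_ne_zero Subgroup.index_ne_zero_of_finite
      exact lt_mul_of_one_lt_left h2 h1
    haveI : Finite ρu.range := Finite.of_surjective _ ρu.rangeRestrict_surjective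
    let φ' : ρu.range →* Alt r := ρu.rangeRestrict.liftOfSurjective ρu.rangeRestrict_surjective
      ⟨φ, fun x hx => hk x (by
        have := congrArg (fun y : ρu.range => (y.1 : Module.End (Kp p) V)) hx
        simpa [ρu] using this)⟩
    have hφ'c : ∀ h, φ' (ρu.rangeRestrict h) = φ h := fun h =>
      MonoidHom.liftOfRightInverse_comp_apply _ _ _ _ h
    have := ihc _ hcard ρu.range ((Units.coeHom _).comp ρu.range.subtype) φ' rfl
      (fun x => by obtain ⟨h, rfl⟩ := hφ x; exact ⟨_, hφ'c h⟩)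
      (fun y hy => by
        obtain ⟨h, rfl⟩ := ρu.rangeRestrict_surjective y
        rw [hφ'c]
        exact hk h hy)
    omega
  have hmin : ∀ M : Subgroup H, M ≠ ⊤ → M.map φ ≠ ⊤ := by
    intro M hM htop
    have hcard : Nat.card M < c := hc ▸ Nat.lt_of_le_of_ne (Subgroup.card_le_card_group M)
      (fun e => hM (Subgroup.eq_top_of_card_eq M e))
    have := ihc _ hcard M (ρ.comp M.subtype) (φ.comp M.subtype) rfl (fun x => by
      obtain ⟨m, hm, rfl⟩ := (htop ▸ Subgroup.mem_top x : x ∈ M.map φ)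
      exact ⟨⟨m, hm⟩, rfl⟩) (fun h hh => hk _ hh)
    omega
  have hperf := perfect_of_min (by omega) hφ hmin
  haveI : Nontrivial V := by
    obtain ⟨a, b, hab⟩ := exists_noncomm (show 5 ≤ r by omega)
    obtain ⟨x, rfl⟩ := hφ a
    by_contra hV
    rw [not_nontrivial_iff_subsingleton] at hV
    have : φ x = 1 := hk x (LinearMap.ext fun v => Subsingleton.elim _ _)
    exact hab (by rw [this, one_mul, mul_one])
  -- irreducibility
  have hirr : ∀ U : Submodule (Kp p) V, (∀ g, ∀ x ∈ U, ρ g x ∈ U) → U = ⊥ ∨ U = ⊤ := by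
    intro U hU
    by_contra hne
    push Not at hne
    have hU1 : finrank (Kp p) U < n := hn ▸ Submodule.finrank_lt hne.2
    have hU2 : finrank (Kp p) (V ⧸ U) < n := by
      have := U.finrank_quotient_add_finrank
      have : 0 < finrank (Kp p) U := Nat.pos_of_ne_zero fun h => hne.1 (Submodule.finrank_eq_zero.1 h)
      omega
    have t1 : (restrictRep ρ U hU).ker = ⊤ := by
      rcases normal_eq_top_or_le (by omega) hφ hmin (restrictRep ρ U hU).ker with h | h
      · exact h
      · have := ihn _ hU1 p U rfl H _ φ hφ (fun x hx => h hx)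
        omega
    have t2 : (quotRep ρ U hU).ker = ⊤ := by
      rcases normal_eq_top_or_le (by omega) hφ hmin (quotRep ρ U hU).ker with h | h
      · exact h
      · have := ihn _ hU2 p (V ⧸ U) rfl H _ φ hφ (fun x hx => h hx)
        omega
    have hfix : ∀ g, ∀ x ∈ U, ρ g x = x := fun g =>
      (restrictRep_eq_one_iff ρ U hU g).1 (t1 ▸ Subgroup.mem_top g : g ∈ (restrictRep ρ U hU).ker)
    have hd : ∀ g x, ρ g x - x ∈ U := fun g x => by
      rw [← Submodule.Quotient.eq, ← quotRep_mk ρ U hU g x,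
        show quotRep ρ U hU g = 1 from (t2 ▸ Subgroup.mem_top g : g ∈ (quotRep ρ U hU).ker)]
      rfl
    have hab : ∀ g g' : H, g * g' = g' * g := fun g g' => by
      have hρ : ρ (g * g') = ρ (g' * g) := LinearMap.ext fun x => by
        have e1 := hfix g _ (hd g' x)
        have e2 := hfix g' _ (hd g x)
        rw [map_sub] at e1 e2
        rw [rep_mul_apply, rep_mul_apply, sub_eq_iff_eq_add.1 e1, sub_eq_iff_eq_add.1 e2]
        abel
      have := hinj (g * g' * (g' * g)⁻¹) (by rw [map_mul, hρ, ← map_mul, mul_inv_cancel, map_one])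
      exact mul_inv_eq_one.1 this
    obtain ⟨a, b, hne'⟩ := exists_noncomm (show 5 ≤ r by omega)
    obtain ⟨x, rfl⟩ := hφ a
    obtain ⟨y, rfl⟩ := hφ b
    exact hne' (by rw [← map_mul, ← map_mul, hab])
  have hsmall : finrank (Kp p) V + 2 ≤ r := by omega
  have hscal : ∀ (A : Subgroup H), A.Normal → (∀ a ∈ A, ∀ b ∈ A, a * b = b * a) →
      ∀ a ∈ A, ∃ c : Kp p, ρ a = c • 1 := fun A _ hA =>
    scalar_of_abelian_normal ρ hr hφ hmin hirr hsmall A hA
  have hZ : ∀ z ∈ Subgroup.center H, ∃ c : Kp p, ρ z = c • 1 :=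
    hscal _ inferInstance fun a _ b hb => Subgroup.mem_center_iff.1 hb a
  have hcentral_of_scalar : ∀ (z : H) (c : Kp p), ρ z = c • (1 : Module.End (Kp p) V) → z ∈ Subgroup.center H := fun z c hz =>
    Subgroup.mem_center_iff.2 fun g => by
      have hρ : ρ (g * z) = ρ (z * g) := by rw [map_mul, map_mul, hz, mul_smul_comm, mul_one, smul_mul_assoc, one_mul]
      have := hinj (g * z * (z * g)⁻¹) (by rw [map_mul, hρ, ← map_mul, mul_inv_cancel, map_one])
      exact mul_inv_eq_one.1 this
  refine main_central hr ρ φ hφ hinj hperf (fun z hz => hZ z ?_) hlt'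
  -- the kernel is central
  revert z
  show φ.ker ≤ Subgroup.center H
  by_contra hKZ
  have hfr := map_ne_top_of_min hφ hmin
  haveI : Group.IsNilpotent (frattini H) := frattini_nilpotent
  haveI hKnil : Group.IsNilpotent φ.ker :=
    nilpotent_of_mulEquiv (Subgroup.subgroupOfEquivOfLe hfr)
  obtain ⟨l, hlp, P, hP⟩ : ∃ l : ℕ, l.Prime ∧ ∃ P : Sylow l φ.ker, ¬ ((P : Subgroup φ.ker).map φ.ker.subtype ≤ Subgroup.center H) := by
    by_contra hall
    push Not at hall
    refine hKZ ?_
    let C : Subgroup φ.ker := (Subgroup.center H).subgroupOf φ.ker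
    suffices C = ⊤ by
      intro x hx
      exact (this ▸ Subgroup.mem_top (⟨x, hx⟩ : φ.ker) : (⟨x, hx⟩ : φ.ker) ∈ C)
    rw [← Subgroup.index_eq_one]
    by_contra hne
    obtain ⟨l, hl, hdvd⟩ := Nat.exists_prime_and_dvd hne
    haveI := Fact.mk hl
    obtain ⟨P⟩ : Nonempty (Sylow l φ.ker) := Sylow.nonempty
    have hle : (P : Subgroup φ.ker) ≤ C := fun x hx => hall l hl P ⟨x, hx, rfl⟩
    exact P.not_dvd_index' (by exact Subgroup.index_ne_zero_of_finite) (hdvd.trans (Subgroup.index_dvd_of_le hle))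
  haveI := Fact.mk hlp
  haveI hPn : (P : Subgroup φ.ker).Normal := by
    have := (Group.isNilpotent_of_finite_tfae (G := φ.ker)).out 0 3
    exact this.1 hKnil l ⟨hlp⟩ P
  haveI : (P : Subgroup φ.ker).Characteristic := P.characteristic_of_normal hPn
  set P' := (P : Subgroup φ.ker).map φ.ker.subtype
  haveI hP'n : P'.Normal := inferInstance
  have hP'p : IsPGroup l P' := P.2.map _
  obtain ⟨N, ⟨hNn, hNP, hNZ⟩, hNmin⟩ := exists_minimal_of_wellFoundedLT
    (fun N : Subgroup H => N.Normal ∧ N ≤ P' ∧ ¬ N ≤ Subgroup.center H) ⟨P', hP'n, le_rfl, hP⟩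
  haveI := hNn
  have hNp : IsPGroup l N := hP'p.to_le hNP
  -- commutators and powers of N are central
  have hsmallN : (∀ x ∈ N, ∀ y ∈ N, ⁅x, y⁆ ∈ Subgroup.center H) ∧ ∀ x ∈ N, x ^ l ∈ Subgroup.center H := by
    let S : Set H := {z | ∃ x ∈ N, ∃ y ∈ N, z = ⁅x, y⁆} ∪ {z | ∃ x ∈ N, z = x ^ l}
    haveI : (Subgroup.closure S).Normal := normal_closure_of_invariant S fun g z hz => by
      rcases hz with ⟨x, hx, y, hy, rfl⟩ | ⟨x, hx, rfl⟩
      · exact Or.inl ⟨_, hNn.conj_mem x hx g, _, hNn.conj_mem y hy g, by simp only [commutatorElement_def]; group⟩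
      · exact Or.inr ⟨_, hNn.conj_mem x hx g, by rw [conj_pow]⟩
    suffices hle : Subgroup.closure S ≤ Subgroup.center H from
      ⟨fun x hx y hy => hle (Subgroup.subset_closure (Or.inl ⟨x, hx, y, hy, rfl⟩)),
        fun x hx => hle (Subgroup.subset_closure (Or.inr ⟨x, hx, rfl⟩))⟩
    by_contra hle
    have hNne : Nontrivial N := by
      rw [Subgroup.nontrivial_iff_ne_bot]
      rintro rfl
      exact hNZ bot_le
    obtain ⟨a, ha⟩ := IsPGroup.iff_card.1 hNp
    have ha1 : 1 ≤ a := by
      by_contra h0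
      rw [show a = 0 by omega, pow_zero] at ha
      have := Finite.one_lt_card (α := N)
      omega
    obtain ⟨M, hM⟩ := Sylow.exists_subgroup_card_pow_prime l (n := a - 1) (G := N)
      (by rw [ha]; exact pow_dvd_pow l (Nat.sub_le a 1))
    have hidx : M.index = l := by
      have h1 := M.card_mul_index
      rw [hM, ha] at h1
      refine Nat.eq_of_mul_eq_mul_left (pow_pos hlp.pos (a - 1)) ?_
      rw [h1, ← pow_succ, Nat.sub_add_cancel ha1]
    haveI : M.Normal := Subgroup.normal_of_index_eq_minFac_card (by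
      rw [hidx, ha, Nat.pow_minFac (by omega), hlp.minFac_eq])
    have hQ : Nat.card (N ⧸ M) = l := by rw [← Subgroup.index_eq_card, hidx]
    haveI : IsCyclic (N ⧸ M) := isCyclic_of_prime_card hQ
    have hleM : Subgroup.closure S ≤ M.map N.subtype := by
      rw [Subgroup.closure_le]
      rintro z (⟨x, hx, y, hy, rfl⟩ | ⟨x, hx, rfl⟩)
      · refine ⟨⁅(⟨x, hx⟩ : N), ⟨y, hy⟩⁆, ?_, map_commutatorElement N.subtype _ _⟩
        rw [SetLike.mem_coe, ← QuotientGroup.eq_one_iff, ← QuotientGroup.mk'_apply, map_commutatorElement,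
          commutatorElement_eq_one_iff_mul_comm]
        exact IsMulCommutative.is_comm.comm _ _
      · refine ⟨(⟨x, hx⟩ : N) ^ l, ?_, rfl⟩
        rw [SetLike.mem_coe, ← QuotientGroup.eq_one_iff, ← QuotientGroup.mk'_apply, map_pow, ← hQ, pow_card_eq_one']
    have hleN : Subgroup.closure S ≤ N := hleM.trans (Subgroup.map_subtype_le M)
    have := hNmin ⟨inferInstance, hleN.trans hNP, hle⟩ hleN
    have hMtop : M = ⊤ := eq_top_iff.2 fun x _ => by
      obtain ⟨y, hy, hyx⟩ := hleM (this x.2)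
      rwa [← Subtype.ext hyx]
    rw [hMtop, Subgroup.index_top] at hidx
    exact hlp.one_lt.ne hidx
  obtain ⟨hcomm, hpow⟩ := hsmallN
  let ZN : Subgroup N := (Subgroup.center H).subgroupOf N
  -- linear independence bound
  have hQcard : Nat.card (N ⧸ ZN) ≤ n * n := by
    classical
    have hsc : ∀ x y : N, ∃ c : Kp p, ρ ⁅y.1, x.1⁆ = c • 1 := fun x y => hZ _ (hcomm y.1 y.2 x.1 x.2)
    choose χ hχ using hsc
    let T : N → Module.End (Kp p) (Module.End (Kp p) V) := fun y =>
      LinearMap.mulLeft (Kp p) (ρ y.1) ∘ₗ LinearMap.mulRight (Kp p) (ρ y.1⁻¹)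
    have hT : ∀ y E, T y E = ρ y.1 * E * ρ y.1⁻¹ := fun y E => (mul_assoc _ _ _).symm
    have hTc : ∀ y y', Commute (T y) (T y') := fun y y' => LinearMap.ext fun E => by
      show T y (T y' E) = T y' (T y E)
      simp only [hT]
      obtain ⟨c, hc⟩ := hZ _ (hcomm y.1 y.2 y'.1 y'.2)
      obtain ⟨c', hc'⟩ := hZ _ (Subgroup.inv_mem _ (hcomm y.1 y.2 y'.1 y'.2))
      have e1 : ρ y.1 * ρ y'.1 = c • (ρ y'.1 * ρ y.1) := by
        rw [← map_mul, ← map_mul, show y.1 * y'.1 = ⁅y.1, y'.1⁆ * (y'.1 * y.1) by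
          simp only [commutatorElement_def]; group, map_mul, hc, smul_mul_assoc, one_mul]
      have e2 : ρ y'.1⁻¹ * ρ y.1⁻¹ = c' • (ρ y.1⁻¹ * ρ y'.1⁻¹) := by
        rw [← map_mul, ← map_mul, show y'.1⁻¹ * y.1⁻¹ = (y.1⁻¹ * y'.1⁻¹) * ⁅y.1, y'.1⁆⁻¹ by
          simp only [commutatorElement_def]; group, map_mul, hc', mul_smul_comm, mul_one]
      have hcc : c * c' = 1 := by
        have : ρ (⁅y.1, y'.1⁆ * ⁅y.1, y'.1⁆⁻¹) = (c * c') • 1 := by
          rw [map_mul, hc, hc', smul_mul_smul_comm, one_mul]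
        rw [mul_inv_cancel, map_one] at this
        obtain ⟨x, hx⟩ := exists_ne (0 : V)
        have h1 := DFunLike.congr_fun this x
        simp only [Module.End.one_apply, LinearMap.smul_apply] at h1
        by_contra hne
        exact hx ((smul_eq_zero.1 (show (c * c' - 1) • x = 0 by rw [sub_smul, one_smul, ← h1, sub_self])).resolve_left
          (sub_ne_zero.2 hne))
      calc ρ y.1 * (ρ y'.1 * E * ρ y'.1⁻¹) * ρ y.1⁻¹
          = (ρ y.1 * ρ y'.1) * E * (ρ y'.1⁻¹ * ρ y.1⁻¹) := by noncomm_ring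
        _ = (c * c') • ((ρ y'.1 * ρ y.1) * E * (ρ y.1⁻¹ * ρ y'.1⁻¹)) := by
            rw [e1, e2]; simp only [smul_mul_assoc, mul_smul_comm, smul_smul]; rw [mul_comm c' c]
        _ = ρ y'.1 * (ρ y.1 * E * ρ y.1⁻¹) * ρ y'.1⁻¹ := by rw [hcc, one_smul]; noncomm_ring
    have hw : ∀ (x : N), ∀ y, T y (ρ x.1) = χ x y • ρ x.1 := fun x y => by
      rw [hT, ← map_mul, ← map_mul, show y.1 * x.1 * y.1⁻¹ = ⁅y.1, x.1⁆ * x.1 by
        simp only [commutatorElement_def]; group, map_mul, hχ, smul_mul_assoc, one_mul]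
    have hsep : ∀ x x' : N, χ x = χ x' → (x : N ⧸ ZN) = (x' : N ⧸ ZN) := by
      intro x x' hxx
      rw [QuotientGroup.eq, Subgroup.mem_subgroupOf]
      have hcent : ∀ y : N, ⁅y.1, x.1⁆ = ⁅y.1, x'.1⁆ := fun y => by
        have := hinj (⁅y.1, x.1⁆ * ⁅y.1, x'.1⁆⁻¹) (by
          rw [map_mul, hχ, congrFun hxx y, ← hχ, ← map_mul, mul_inv_cancel, map_one])
        exact mul_inv_eq_one.1 this
      set w := (x⁻¹ * x' : N)
      have hw' : ∀ y ∈ N, y * w.1 = w.1 * y := fun y hy => by
        have e := hcent ⟨y, hy⟩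
        have e1 : y * x.1 * y⁻¹ = ⁅y, x.1⁆ * x.1 := by simp only [commutatorElement_def]; group
        have e2 : y * x'.1 * y⁻¹ = ⁅y, x'.1⁆ * x'.1 := by simp only [commutatorElement_def]; group
        have : y * (x.1⁻¹ * x'.1) * y⁻¹ = x.1⁻¹ * x'.1 := by
          rw [show y * (x.1⁻¹ * x'.1) * y⁻¹ = (y * x.1 * y⁻¹)⁻¹ * (y * x'.1 * y⁻¹) by group, e1, e2, e]
          group
        exact mul_inv_eq_iff_eq_mul.1 this
      haveI : (N ⊓ Subgroup.centralizer (N : Set H)).Normal := inferInstance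
      obtain ⟨c, hc⟩ := hscal (N ⊓ Subgroup.centralizer (N : Set H)) inferInstance
        (fun a ha b hb => Subgroup.mem_centralizer_iff.1 hb.2 a ha.1) w.1
        ⟨w.2, Subgroup.mem_centralizer_iff.2 hw'⟩
      exact hcentral_of_scalar _ c hc
    haveI : Fintype (N ⧸ ZN) := Fintype.ofFinite _
    choose rep hrep using fun z : N ⧸ ZN => QuotientGroup.mk_surjective z
    have := card_weights_le T hTc (Finset.univ.image fun z => χ (rep z)) (fun f hf => by
      obtain ⟨z, -, rfl⟩ := Finset.mem_image.1 hf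
      refine ⟨ρ (rep z).1, fun h0 => ?_, hw _⟩
      obtain ⟨v, hv⟩ := exists_ne (0 : V)
      have := rep_inv_apply ρ (rep z).1 v
      rw [h0] at this
      exact hv (by simpa using this.symm))
    rw [Finset.card_image_of_injective _ (fun z z' e => by rw [← hrep z, ← hrep z']; exact hsep _ _ e),
      Finset.card_univ, Module.finrank_linearMap, hn] at this
    rwa [Nat.card_eq_fintype_card]
  -- the action on the quotient
  let conjN : H →* MulAut N := MulAut.conjNormal
  have hZinv : ∀ g : H, ∀ z ∈ ZN, conjN g z ∈ ZN := fun g z hz => by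
    rw [Subgroup.mem_subgroupOf] at hz ⊢
    show (conjN g z : H) ∈ _
    rw [MulAut.conjNormal_apply, Subgroup.mem_center_iff.1 hz, mul_inv_cancel_right]
    exact hz
  haveI : ZN.Normal := inferInstance
  letI : CommGroup (N ⧸ ZN) :=
    { (inferInstance : Group (N ⧸ ZN)) with
      mul_comm := fun a b => by
        obtain ⟨x, rfl⟩ := QuotientGroup.mk'_surjective ZN a
        obtain ⟨y, rfl⟩ := QuotientGroup.mk'_surjective ZN b
        rw [← commutatorElement_eq_one_iff_mul_comm, ← map_commutatorElement, QuotientGroup.mk'_apply,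
          QuotientGroup.eq_one_iff, Subgroup.mem_subgroupOf]
        exact hcomm x.1 x.2 y.1 y.2 }
  let ψ : H →* Monoid.End (N ⧸ ZN) :=
    { toFun := fun g => QuotientGroup.map ZN ZN (conjN g).toMonoidHom (fun z hz => hZinv g z hz)
      map_one' := MonoidHom.ext fun z => by
        obtain ⟨x, rfl⟩ := QuotientGroup.mk'_surjective ZN z
        show (QuotientGroup.mk' ZN) (conjN 1 x) = QuotientGroup.mk' ZN x
        rw [map_one]; rfl
      map_mul' := fun g g' => MonoidHom.ext fun z => by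
        obtain ⟨x, rfl⟩ := QuotientGroup.mk'_surjective ZN z
        show (QuotientGroup.mk' ZN) (conjN (g * g') x) = QuotientGroup.mk' ZN (conjN g (conjN g' x))
        rw [map_mul]; rfl }
  have hexp : ∀ z : N ⧸ ZN, z ^ l = 1 := fun z => by
    obtain ⟨x, rfl⟩ := QuotientGroup.mk'_surjective ZN z
    rw [← map_pow, QuotientGroup.mk'_apply, QuotientGroup.eq_one_iff, Subgroup.mem_subgroupOf]
    exact hpow x.1 x.2
  have hσk : ∀ g, ψ g = 1 → φ g = 1 := by
    rcases normal_eq_top_or_le (by omega) hφ hmin ψ.ker with htop | h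
    · exfalso
      refine hNZ fun x hx => Subgroup.mem_center_iff.2 fun g => ?_
      have hmem : ∀ g : H, ⁅g, x⁆ ∈ Subgroup.center H := fun g => by
        have h1 : ψ g = 1 := (htop ▸ Subgroup.mem_top g : g ∈ ψ.ker)
        have h2 : ((conjN g ⟨x, hx⟩ : N) : N ⧸ ZN) = ((⟨x, hx⟩ : N) : N ⧸ ZN) :=
          DFunLike.congr_fun h1 ((⟨x, hx⟩ : N) : N ⧸ ZN)
        have h3 := QuotientGroup.eq.1 h2.symm
        rw [Subgroup.mem_subgroupOf] at h3
        have h4 : x⁻¹ * (g * x * g⁻¹) ∈ Subgroup.center H := h3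
        rw [show ⁅g, x⁆ = x * (x⁻¹ * (g * x * g⁻¹)) * x⁻¹ by simp only [commutatorElement_def]; group,
          Subgroup.mem_center_iff.1 h4 x, mul_inv_cancel_right]
        exact h4
      let f : H →* Subgroup.center H :=
        { toFun := fun g => ⟨⁅g, x⁆, hmem g⟩
          map_one' := Subtype.ext (commutatorElement_one_left x)
          map_mul' := fun g g' => Subtype.ext (by
            show ⁅g * g', x⁆ = ⁅g, x⁆ * ⁅g', x⁆
            rw [show ⁅g * g', x⁆ = g * ⁅g', x⁆ * g⁻¹ * ⁅g, x⁆ by simp only [commutatorElement_def]; group,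
              Subgroup.mem_center_iff.1 (hmem g') g, mul_inv_cancel_right,
              Subgroup.mem_center_iff.1 (hmem g) ⁅g', x⁆]) }
      have := congrArg Subtype.val (hom_comm_eq_one hperf (fun a b => Subtype.ext (Subgroup.mem_center_iff.1 b.2 a.1)) f g)
      exact commutatorElement_eq_one_iff_mul_comm.1 this
    · exact fun g hg => h hg
  obtain ⟨d, τ, hQd, hτk⟩ := exists_matrix_rep l hexp ψ
  have hτ : ∀ g, τ g = 1 → φ g = 1 := fun g hg => hσk g (hτk g hg)
  have hMle : l ^ d ≤ n * n := hQd ▸ hQcard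
  have h2d : 2 ^ d ≤ n * n := (Nat.pow_le_pow_left hlp.two_le d).trans hMle
  by_cases hdn : d < n
  · let τ' : Representation (Kp l) H (Fin d → Kp l) :=
      ((Matrix.toLinAlgEquiv' (R := Kp l) (n := Fin d)).toMonoidHom).comp
        (((algebraMap (ZMod l) (Kp l)).mapMatrix : Matrix (Fin d) (Fin d) (ZMod l) →+* Matrix (Fin d) (Fin d) (Kp l)).toMonoidHom.comp τ)
    have hd := ihn d hdn l (Fin d → Kp l) (Module.finrank_fin_fun _) H τ' φ hφ (fun g hg => hτ g (by
      have h1 := (Matrix.toLinAlgEquiv' (R := Kp l) (n := Fin d)).injective (hg.trans (map_one _).symm)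
      exact Matrix.map_injective (algebraMap (ZMod l) (Kp l)).injective (h1.trans (map_one
        ((algebraMap (ZMod l) (Kp l)).mapMatrix : Matrix (Fin d) (Fin d) (ZMod l) →+* _)).symm)))
    have hb' := le_altBound (r := r) (p := l)
    have h3 : 2 ^ (r - 2) ≤ 2 ^ d := Nat.pow_le_pow_right (by norm_num) (by omega)
    have h4 := sq_lt_two_pow (r - 2) (by omega)
    rw [sq] at h4
    have : n * n ≤ (r - 2) * (r - 2) := Nat.mul_le_mul (by omega) (by omega)
    omega
  · have h5 : 2 ^ n ≤ n * n := (Nat.pow_le_pow_right (by norm_num) (by omega)).trans h2d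
    have hn4 : n ≤ 4 := by
      by_contra h
      have := sq_lt_two_pow n (by omega)
      rw [sq] at this
      omega
    have hn16 : n * n ≤ 16 := Nat.mul_le_mul hn4 hn4
    have hd4 : d ≤ 4 := by
      by_contra h
      have : 2 ^ 5 ≤ 2 ^ d := Nat.pow_le_pow_right (by norm_num) (by omega)
      omega
    have hle : Nat.card (Alt r) ≤ Nat.card (Matrix (Fin d) (Fin d) (ZMod l)) := by
      have hinv : ∀ g, τ g = τ 1 → φ g = 1 := fun g hg => hτ g (hg.trans (map_one τ))
      have hwd : ∀ g g', τ g = τ g' → φ g = φ g' := fun g g' h => by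
        have := hτ (g * g'⁻¹) (by rw [map_mul, h, ← map_mul, mul_inv_cancel, map_one])
        rwa [map_mul, map_inv, mul_inv_eq_one] at this
      choose sec hsec using hφ
      exact Nat.card_le_card_of_injective (fun x => τ (sec x)) fun x y h => by
        rw [← hsec x, ← hsec y]; exact hwd _ _ h
    have hmat : Nat.card (Matrix (Fin d) (Fin d) (ZMod l)) = (l ^ d) ^ d := by
      rw [Matrix, Nat.card_fun, Nat.card_fun, Nat.card_zmod, Nat.card_eq_fintype_card, Fintype.card_fin]
    have h16 : (l ^ d) ^ d ≤ 16 ^ 4 :=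
      (Nat.pow_le_pow_left (hMle.trans hn16) d).trans (Nat.pow_le_pow_right (by norm_num) hd4)
    have hcard := card_alt (r := r) (by omega)
    have h9 : (9 : ℕ).factorial ≤ r.factorial := Nat.factorial_le hr
    norm_num [Nat.factorial] at h9
    omega

end CfsgLib.AltLinear
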